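import Mathlib

/-!
# `Sz(q)` with four prime divisors: `q = 8` or `q = 32`
-/

set_option autoImplicit false

namespace Cfsg.Agent.H404.SzPaw

theorem five_pow_odd (k : ℕ) : 5 ^ (2 * k + 1) % 8 = 5 := by
  induction k with
  | zero => norm_num
  | succ k ih =>
    have : 5 ^ (2 * (k + 1) + 1) = 25 * 5 ^ (2 * k + 1) := by ring
    rw [this]
    omega

theorem two_pow_dvd {j k : ℕ} (h : 2 ^ (j + 2) ∣ 5 ^ k - 1) : 2 ^ j ∣ k := by
  induction j generalizing k with
  | zero => exact one_dvd _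
  | succ j ih =>
    have h8 : 8 ∣ 5 ^ k - 1 := by
      refine Dvd.dvd.trans ?_ h
      rw [show (8 : ℕ) = 2 ^ 3 by norm_num]
      exact pow_dvd_pow 2 (by omega)
    rcases Nat.even_or_odd' k with ⟨i, rfl | rfl⟩
    · have h1 : 5 ^ (2 * i) - 1 = (5 ^ i + 1) * (5 ^ i - 1) := by
        rw [mul_comm 2 i, pow_mul]
        have := Nat.sq_sub_sq (5 ^ i) 1
        simpa using this
      obtain ⟨c, hc⟩ : ∃ c, 5 ^ i + 1 = 2 * (2 * c + 1) := by
        have : 5 ^ i % 4 = 1 := by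
          rw [Nat.pow_mod]
          norm_num
        exact ⟨5 ^ i / 4, by omega⟩
      rw [h1, hc, mul_assoc, show 2 ^ (j + 1 + 2) = 2 * 2 ^ (j + 2) by ring] at h
      have h2 : 2 ^ (j + 2) ∣ (2 * c + 1) * (5 ^ i - 1) := Nat.dvd_of_mul_dvd_mul_left two_pos h
      have h3 : Nat.Coprime (2 ^ (j + 2)) (2 * c + 1) := by
        apply Nat.Coprime.pow_left
        rw [Nat.coprime_two_left]
        exact ⟨c, rfl⟩
      rw [pow_succ']
      exact Nat.mul_dvd_mul_left 2 (ih (h3.dvd_of_dvd_mul_left h2))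
    · exfalso
      have h1 := five_pow_odd i
      generalize 5 ^ (2 * i + 1) = x at h8 h1
      omega

theorem five_pow_big {K : ℕ} (h : 3 ≤ K) : 8 * K ^ 2 + 4 * K + 1 < 5 ^ K := by
  induction K, h using Nat.le_induction with
  | base => norm_num
  | succ K hK ih =>
    have h1 : 5 ^ (K + 1) = 5 ^ K * 5 := pow_succ _ _
    rw [h1]
    nlinarith

/-- `2 ^ (2 m + 1) ± 2 ^ (m + 1) + 1` is a power of five. -/
theorem le_two_of_pow {m k a : ℕ} (hm : 1 ≤ m) (hk : 5 ^ k = a)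
    (ha : a = 2 ^ (2 * m + 1) + 2 ^ (m + 1) + 1 ∨ a + 2 ^ (m + 1) = 2 ^ (2 * m + 1) + 1) : m ≤ 2 := by
  obtain ⟨n, rfl⟩ : ∃ n, m = n + 1 := ⟨m - 1, by omega⟩
  obtain ⟨K, hK⟩ : ∃ K, K = 2 ^ n := ⟨_, rfl⟩
  have hK1 : 1 ≤ K := hK ▸ Nat.one_le_two_pow
  have e1 : 2 ^ (2 * (n + 1) + 1) = 8 * K ^ 2 := by
    rw [hK, ← pow_mul, show (8 : ℕ) = 2 ^ 3 by norm_num, ← pow_add]
    congr 1
    ring
  have e2 : 2 ^ (n + 1 + 1) = 4 * K := by
    rw [hK, pow_succ, pow_succ]
    ring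
  rw [e1, e2] at ha
  have hle : a ≤ 8 * K ^ 2 + 4 * K + 1 := by omega
  have hd : 4 * K ∣ 5 ^ k - 1 := by
    rw [hk]
    have hsq : 8 * K ^ 2 = 4 * K * (2 * K) := by ring
    rcases ha with h | h
    · refine ⟨2 * K + 1, ?_⟩
      rw [h, hsq, Nat.add_sub_cancel]
      ring
    · refine ⟨2 * K - 1, ?_⟩
      obtain ⟨L, rfl⟩ : ∃ L, K = L + 1 := ⟨K - 1, by omega⟩
      have h1 : 2 * (L + 1) - 1 = 2 * L + 1 := by omega
      rw [h1]
      have h2 : 8 * (L + 1) ^ 2 = 4 * (L + 1) * (2 * L + 1) + 4 * (L + 1) := by ring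
      omega
  have hdk : 2 ^ n ∣ k := by
    apply two_pow_dvd
    rw [pow_add, ← hK, mul_comm]
    exact hd
  rw [← hK] at hdk
  have hk0 : 0 < k := by
    rcases Nat.eq_zero_or_pos k with h | h
    · exfalso
      rw [h, pow_zero] at hk
      have h5 : 4 * K < 8 * K ^ 2 := by nlinarith
      omega
    · exact h
  have hKk : K ≤ k := Nat.le_of_dvd hk0 hdk
  have h5 : 5 ^ K ≤ 8 * K ^ 2 + 4 * K + 1 := by
    calc 5 ^ K ≤ 5 ^ k := Nat.pow_le_pow_right (by norm_num) hKk
      _ = a := hk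
      _ ≤ _ := hle
  have hK3 : K < 3 := by
    by_contra h
    have := five_pow_big (not_lt.1 h)
    omega
  by_contra hn
  have : 2 ≤ n := by omega
  have h6 : 2 ^ 2 ≤ 2 ^ n := Nat.pow_le_pow_right (by norm_num) this
  omega

/-- Four prime divisors. -/
theorem m_le_two {m : ℕ} (hm : 1 ≤ m) {q r N : ℕ} (hq : q = 2 ^ (2 * m + 1)) (hr : r = 2 ^ (m + 1))
    (hN : N = q ^ 2 * (q ^ 2 + 1) * (q - 1)) (h4 : N.primeFactors.card = 4) : m ≤ 2 := by
  have hrq : 2 * r ≤ q := by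
    rw [hq, hr, ← pow_succ']
    exact Nat.pow_le_pow_right (by norm_num) (by omega)
  have hr4 : 4 ≤ r := by
    rw [hr]
    calc 4 = 2 ^ 2 := by norm_num
      _ ≤ 2 ^ (m + 1) := Nat.pow_le_pow_right (by norm_num) (by omega)
  have hrr : r * r = 2 * q := by
    rw [hq, hr, ← pow_add, ← pow_succ']
    congr 1
    ring
  obtain ⟨b, hb⟩ : ∃ b, b + r = q + 1 := ⟨q + 1 - r, by omega⟩
  have hab : (q + r + 1) * b = q ^ 2 + 1 := by
    have h1 : (q + r + 1) * (b + r) = (q + r + 1) * (q + 1) := by rw [hb]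
    nlinarith
  have hb5 : 5 ≤ b := by omega
  -- coprimality
  have hodd : ∀ x : ℕ, x ∣ q ^ 2 + 1 → Odd x := by
    intro x hx
    refine Odd.of_dvd_nat ?_ hx
    have : Even (q ^ 2) := by
      rw [hq]
      exact ((even_two).pow_of_ne_zero (by omega)).pow_of_ne_zero (by norm_num)
    exact this.add_one
  have hoq : Odd (q - 1) := by
    have : Even q := by
      rw [hq]
      exact (even_two).pow_of_ne_zero (by omega)
    obtain ⟨c, hc⟩ := this
    exact ⟨c - 1, by omega⟩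
  have hpa : ∀ p : ℕ, p.Prime → p ∣ q + r + 1 → p ∣ b → False := by
    intro p hp h1 h2
    have ho : Odd p := hodd p (h1.trans (Dvd.intro _ hab))
    have h3 : p ∣ (q + r + 1) - b := Nat.dvd_sub h1 h2
    have h4 : (q + r + 1) - b = 2 ^ (m + 2) := by
      rw [pow_succ, ← hr]
      omega
    rw [h4] at h3
    have h5 := (Nat.prime_dvd_prime_iff_eq hp Nat.prime_two).1 (hp.dvd_of_dvd_pow h3)
    rw [h5] at ho
    exact absurd ho (by decide)
  have hpt : ∀ p : ℕ, p.Prime → p ∣ q - 1 → p ∣ q ^ 2 + 1 → False := by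
    intro p hp h1 h2
    have ho : Odd p := hodd p h2
    have h3 : p ∣ (q ^ 2 + 1) - (q - 1) * (q + 1) := Nat.dvd_sub h2 (h1.mul_right _)
    have h4 : (q ^ 2 + 1) - (q - 1) * (q + 1) = 2 := by
      obtain ⟨c, hc⟩ : ∃ c, q = c + 1 := ⟨q - 1, by omega⟩
      subst hc
      rw [Nat.add_sub_cancel]
      have : (c + 1) ^ 2 + 1 = c * (c + 1 + 1) + 2 := by ring
      omega
    rw [h4] at h3
    have h5 := (Nat.prime_dvd_prime_iff_eq hp Nat.prime_two).1 h3
    rw [h5] at ho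
    exact absurd ho (by decide)
  have hN0 : N ≠ 0 := by
    rw [hN]
    have h1 : 0 < q - 1 := by omega
    have h2 : 0 < q := by omega
    positivity
  obtain ⟨p1, hp1, hd1⟩ := Nat.exists_prime_and_dvd (n := q - 1) (by omega)
  obtain ⟨p2, hp2, hd2⟩ := Nat.exists_prime_and_dvd (n := q + r + 1) (by omega)
  obtain ⟨p3, hp3, hd3⟩ := Nat.exists_prime_and_dvd (n := b) (by omega)
  have ha2 : q + r + 1 ∣ q ^ 2 + 1 := Dvd.intro _ hab
  have hb2 : b ∣ q ^ 2 + 1 := Dvd.intro_left _ hab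
  have hmem : ∀ p : ℕ, p.Prime → (p ∣ q - 1 ∨ p ∣ q ^ 2 + 1) → p ∈ N.primeFactors := by
    intro p hp h
    rw [Nat.mem_primeFactors]
    refine ⟨hp, ?_, hN0⟩
    rw [hN]
    rcases h with h | h
    · exact h.mul_left _
    · exact (h.mul_left _).mul_right _
  have h2mem : 2 ∈ N.primeFactors := by
    rw [Nat.mem_primeFactors]
    refine ⟨Nat.prime_two, ?_, hN0⟩
    rw [hN]
    refine Dvd.dvd.mul_right (Dvd.dvd.mul_right ?_ _) _
    rw [hq]
    exact dvd_pow (dvd_pow_self 2 (by omega)) (by norm_num)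
  have h12 : p1 ≠ p2 := by
    rintro rfl
    exact hpt p1 hp1 hd1 (hd2.trans ha2)
  have h13 : p1 ≠ p3 := by
    rintro rfl
    exact hpt p1 hp1 hd1 (hd3.trans hb2)
  have h23 : p2 ≠ p3 := by
    rintro rfl
    exact hpa p2 hp2 hd2 hd3
  have hne2 : ∀ p : ℕ, p ∣ q ^ 2 + 1 → p ≠ 2 := by
    rintro p h rfl
    exact absurd (hodd 2 h) (by decide)
  have h21 : (2 : ℕ) ≠ p1 := by
    rintro rfl
    exact absurd (Odd.of_dvd_nat hoq hd1) (by decide)
  have hset : ({2, p1, p2, p3} : Finset ℕ) = N.primeFactors := by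
    apply Finset.eq_of_subset_of_card_le
    · intro p hp
      simp only [Finset.mem_insert, Finset.mem_singleton] at hp
      rcases hp with rfl | rfl | rfl | rfl
      · exact h2mem
      · exact hmem _ hp1 (Or.inl hd1)
      · exact hmem _ hp2 (Or.inr (hd2.trans ha2))
      · exact hmem _ hp3 (Or.inr (hd3.trans hb2))
    · rw [h4, Finset.card_insert_of_notMem, Finset.card_insert_of_notMem, Finset.card_insert_of_notMem,
        Finset.card_singleton]
      · simpa using h23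
      · simp only [Finset.mem_insert, Finset.mem_singleton]
        rintro (h | h)
        · exact h12 h
        · exact h13 h
      · simp only [Finset.mem_insert, Finset.mem_singleton]
        rintro (h | h | h)
        · exact h21 h
        · exact hne2 p2 (hd2.trans ha2) h.symm
        · exact hne2 p3 (hd3.trans hb2) h.symm
  have hall : ∀ p : ℕ, p.Prime → p ∣ q ^ 2 + 1 → p = p2 ∨ p = p3 := by
    intro p hp h
    have h1 := hmem p hp (Or.inr h)
    rw [← hset] at h1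
    simp only [Finset.mem_insert, Finset.mem_singleton] at h1
    rcases h1 with h1 | h1 | h1 | h1
    · exact absurd h1 (hne2 p h)
    · exfalso
      rw [h1] at h
      exact hpt p1 hp1 hd1 h
    · exact Or.inl h1
    · exact Or.inr h1
  have h5 : 5 ∣ q ^ 2 + 1 := by
    have h6 : q ^ 2 = 4 * 16 ^ m := by
      rw [hq, ← pow_mul, show (2 * m + 1) * 2 = 2 + 4 * m by ring, pow_add, pow_mul]
      norm_num
    have h7 : 16 ^ m % 5 = 1 := by
      rw [Nat.pow_mod]
      norm_num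
    omega
  have hA : (∀ p : ℕ, p.Prime → p ∣ q + r + 1 → p = p2) := by
    intro p hp h
    rcases hall p hp (h.trans ha2) with h6 | h6
    · exact h6
    · exfalso
      rw [h6] at h
      exact hpa p3 hp3 h hd3
  have hB : (∀ p : ℕ, p.Prime → p ∣ b → p = p3) := by
    intro p hp h
    rcases hall p hp (h.trans hb2) with h6 | h6
    · exfalso
      rw [h6] at h
      exact hpa p2 hp2 hd2 h
    · exact h6
  rcases hall 5 Nat.prime_five h5 with h6 | h6
  · have h7 := Nat.eq_prime_pow_of_unique_prime_dvd (n := q + r + 1) (p := 5) (by omega)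
      (fun {d} hd hdd => by rw [hA d hd hdd, h6])
    exact le_two_of_pow hm h7.symm (Or.inl (by rw [hq, hr]))
  · have h7 := Nat.eq_prime_pow_of_unique_prime_dvd (n := b) (p := 5) (by omega)
      (fun {d} hd hdd => by rw [hB d hd hdd, h6])
    exact le_two_of_pow hm h7.symm (Or.inr (by rw [← hq, ← hr]; exact hb))

end Cfsg.Agent.H404.SzPaw
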